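import Cfsg.Agent.CenterConj.Core
import Cfsg.Agent.Fus.Extension
import Cfsg.Agent.Fus.Saturation
import Cfsg.Agent.Eq.Def_FusionSystem

/-!
The fusion-system case: a saturated fusion system over a 2-group in which every element is
conjugate to a central one lives on a commutative group.
-/

set_option autoImplicit false

namespace CfsgLib.CenterConj

open Cfsg Cfsg.FusionSystem CfsgLib.Fus

variable {Ω : Type*} [Group Ω] {S : Subgroup Ω} {F : Cfsg.FusionSystem S}

theorem isConjElt_of_hom {P : Subgroup Ω} {φ : P →* Ω} (hφ : φ ∈ F.Hom P) (x : P) :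
    F.IsConjElt x (φ x) := by
  have hle : Subgroup.zpowers (x : Ω) ≤ P := Subgroup.zpowers_le.2 x.2
  exact ⟨_, restrict_mem F hφ hle, rfl⟩

theorem isConjElt_mem {x y : Ω} (h : F.IsConjElt x y) : y ∈ S := by
  obtain ⟨φ, hφ, rfl⟩ := h
  exact hom_mem F hφ _

theorem isConjElt_symm {x y : Ω} (h : F.IsConjElt x y) : F.IsConjElt y x := by
  obtain ⟨φ, hφ, rfl⟩ := h
  obtain ⟨ψ, hψ, -, hψφ, -⟩ := exists_inv F hφ rfl
  have h := isConjElt_of_hom hψ ⟨φ ⟨x, Subgroup.mem_zpowers x⟩, ⟨_, rfl⟩⟩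
  rw [hψφ ⟨x, Subgroup.mem_zpowers x⟩ ⟨_, rfl⟩] at h
  exact h

theorem isConjElt_trans {x y z : Ω} (h : F.IsConjElt x y) (h' : F.IsConjElt y z) :
    F.IsConjElt x z := by
  obtain ⟨φ, hφ, rfl⟩ := h
  obtain ⟨ψ, hψ, rfl⟩ := h'
  have hmem : ∀ u : Subgroup.zpowers x,
      φ u ∈ Subgroup.zpowers (φ ⟨x, Subgroup.mem_zpowers x⟩) := by
    rintro ⟨u, k, rfl⟩
    refine ⟨k, ?_⟩
    show φ ⟨x, Subgroup.mem_zpowers x⟩ ^ k = φ ⟨x ^ k, _⟩
    rw [← map_zpow]
    rfl
  exact ⟨_, F.comp_mem hφ hψ hmem, rfl⟩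

theorem isConjElt_inv {x y : Ω} (h : F.IsConjElt x y) : F.IsConjElt x⁻¹ y⁻¹ := by
  obtain ⟨φ, hφ, rfl⟩ := h
  have h := isConjElt_of_hom hφ (⟨x, Subgroup.mem_zpowers x⟩⁻¹)
  rwa [map_inv] at h

theorem mem_centralizer_zpowers {x c : Ω} (h : c * x = x * c) :
    c ∈ Subgroup.centralizer (Subgroup.zpowers x : Set Ω) := by
  rintro _ ⟨k, rfl⟩
  exact ((show Commute c x from h).zpow_right k).symm.eq

theorem centralizerIn_zpowers_of_central {z : Ω} (hz : ∀ s ∈ S, s * z = z * s) :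
    Cfsg.FusionSystem.centralizerIn S (Subgroup.zpowers z) = S :=
  le_antisymm (centralizerIn_le _) fun s hs => ⟨hs, mem_centralizer_zpowers (hz s hs)⟩

/-- A map onto a central element extends to the centralizer of its source. -/
theorem exists_ext_centralizer [Finite S] {p : ℕ} [Fact p.Prime] (hS : IsPGroup p S)
    (hF : F.IsSaturated p) {x z : Ω} (h : F.IsConjElt x z) (hz : ∀ s ∈ S, s * z = z * s)
    {N : Subgroup Ω} (hN : N ≤ Cfsg.FusionSystem.centralizerIn S (Subgroup.zpowers x))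
    (hxN : x ∈ N) : ∃ ψ ∈ F.Hom N, ψ ⟨x, hxN⟩ = z := by
  obtain ⟨φ, hφ, rfl⟩ := h
  have hfc : F.IsFullyCentralized φ.range := by
    refine ⟨range_le F hφ, fun Q hQ => ?_⟩
    have hr : φ.range = Subgroup.zpowers (φ ⟨x, Subgroup.mem_zpowers x⟩) := by
      apply le_antisymm
      · rintro _ ⟨⟨u, k, rfl⟩, rfl⟩
        refine ⟨k, ?_⟩
        show φ ⟨x, Subgroup.mem_zpowers x⟩ ^ k = φ ⟨x ^ k, _⟩
        rw [← map_zpow]
        rfl
      · exact Subgroup.zpowers_le.2 ⟨_, rfl⟩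
    conv_rhs => rw [hr, centralizerIn_zpowers_of_central hz]
    exact Subgroup.card_le_of_le (centralizerIn_le Q)
  obtain ⟨ψ, hψ, hψe⟩ := exists_ext (receptive_of_fullyCentralized hS hF hfc) hφ rfl
    (Subgroup.zpowers_le.2 hxN) (hN.trans centralizerIn_le_extender)
  exact ⟨ψ, hψ, hψe ⟨x, Subgroup.mem_zpowers x⟩⟩

theorem fused_of_saturated [Finite S] (hS : IsPGroup 2 S) (hF : F.IsSaturated 2)
    (h : ∀ x ∈ S, ∃ z ∈ S ⊓ Subgroup.centralizer (S : Set Ω), F.IsConjElt x z) :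
    Fused (S := S) (fun a b => F.IsConjElt a b) := by
  have : Fact (Nat.Prime 2) := ⟨Nat.prime_two⟩
  -- the maps to the centre
  have hto : ∀ x : S, ∃ (N : Subgroup Ω) (ψ : N →* Ω) (_ : ψ ∈ F.Hom N) (hx : (x : Ω) ∈ N),
      (∀ c : S, c * x = x * c → (c : Ω) ∈ N) ∧ ∀ s ∈ S, s * ψ ⟨x, hx⟩ = ψ ⟨x, hx⟩ * s := by
    intro x
    obtain ⟨z, hz, hxz⟩ := h x x.2
    have hxN : (x : Ω) ∈ Cfsg.FusionSystem.centralizerIn S (Subgroup.zpowers (x : Ω)) :=
      ⟨x.2, mem_centralizer_zpowers rfl⟩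
    obtain ⟨ψ, hψ, hψx⟩ := exists_ext_centralizer hS hF hxz (fun s hs => hz.2 s hs) le_rfl hxN
    refine ⟨_, ψ, hψ, hxN, fun c hc => ⟨c.2, mem_centralizer_zpowers (congrArg Subtype.val hc)⟩, ?_⟩
    rw [hψx]
    exact fun s hs => hz.2 s hs
  have hcen : ∀ {w : S}, w ∈ Subgroup.center S → ∀ s ∈ S, s * (w : Ω) = w * s := fun hw s hs =>
    congrArg Subtype.val (Subgroup.mem_center_iff.1 hw ⟨s, hs⟩)
  refine ⟨fun _ _ => isConjElt_symm, fun _ _ _ => isConjElt_trans, fun _ _ => isConjElt_inv,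
    ?_, ?_, ?_, ?_⟩
  · intro s x
    exact isConjElt_of_hom (F.conj_mem le_rfl s.2) x
  · intro x
    obtain ⟨N, ψ, hψ, hxN, hN, hz⟩ := hto x
    have hmem : ∀ c : Subgroup.centralizer ({x} : Set S), ((c : S) : Ω) ∈ N := fun c =>
      hN c (c.2 x (Set.mem_singleton _)).symm
    let φ : Subgroup.centralizer ({x} : Set S) →* S :=
      { toFun := fun c => ⟨ψ ⟨(c : S), hmem c⟩, hom_mem F hψ _⟩
        map_one' := Subtype.ext (map_one ψ)
        map_mul' := fun a b => Subtype.ext (map_mul ψ ⟨(a : S), hmem a⟩ ⟨(b : S), hmem b⟩) }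
    refine ⟨φ, fun a b hab => ?_, fun c hc => ?_,
      fun c => isConjElt_of_hom hψ ⟨(c : S), hmem c⟩⟩
    · exact Subtype.ext (Subtype.ext (Subtype.mk_eq_mk.1
        (F.injective_of_mem hψ (congrArg Subtype.val hab))))
    · rw [Subgroup.mem_center_iff]
      intro q
      apply Subtype.ext
      show (q : Ω) * ψ ⟨(c : S), hmem c⟩ = ψ ⟨(c : S), hmem c⟩ * q
      have hc' : ((c : S) : Ω) = x := congrArg Subtype.val hc
      have e : (⟨(c : S), hmem c⟩ : N) = ⟨x, hxN⟩ := Subtype.ext hc'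
      rw [e]
      exact hz q q.2
  · intro z hz
    refine ⟨F.autGroup S, ?_, fun w => ⟨?_, ?_⟩⟩
    · obtain ⟨-, T, hT⟩ := (fullyNormalized_props hS hF (isFullyNormalized_top F)).1
      have := finite_mulAut S
      have h1 := odd_orbit (F.autGroup S).subtype z T (fun q hq => by
        change q ∈ (T : Subgroup (F.autGroup S)) at hq
        rw [hT] at hq
        obtain ⟨g, hg, hgq⟩ := mem_autInducedBy_iff.1 hq
        apply Subtype.ext
        show ((q : MulAut S) z : Ω) = z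
        refine (hgq z).trans ?_
        rw [hcen hz g hg, mul_inv_cancel_right])
      rwa [Subgroup.range_subtype] at h1
    · rintro ⟨⟨b, hb⟩, rfl⟩
      refine ⟨?_, isConjElt_of_hom ((mem_autGroup_iff F le_rfl).1 hb) z⟩
      rw [Subgroup.mem_center_iff]
      intro q
      show q * b z = b z * q
      obtain ⟨r, rfl⟩ := b.surjective q
      rw [← map_mul, ← map_mul, Subgroup.mem_center_iff.1 hz r]
    · rintro ⟨hw, hzw⟩
      have hle : S ≤ Cfsg.FusionSystem.centralizerIn S (Subgroup.zpowers (z : Ω)) :=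
        (centralizerIn_zpowers_of_central (hcen hz)).ge
      obtain ⟨ψ, hψ, hψz⟩ := exists_ext_centralizer hS hF hzw (hcen hw) hle z.2
      have hr : ψ.range = S :=
        Subgroup.eq_of_le_of_card_ge (range_le F hψ) (isConj_card (isConj_of_hom F hψ)).le
      exact ⟨⟨_, isoOf_mem_autGroup hψ hr⟩, Subtype.ext hψz⟩
  · intro hE hab
    let C := invCent S
    let C' : Subgroup Ω := C.map S.subtype
    have hC'S : C' ≤ S := Subgroup.map_subtype_le C
    have := finite_of_le hC'S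
    have := finite_mulAut C'
    let e : C ≃* C' := C.equivMapOfInjective _ S.subtype_injective
    let f : F.autGroup C' →* MulAut C :=
      (MulAut.congr e.symm).toMonoidHom.comp (F.autGroup C').subtype
    have he : ∀ d : C', ((e.symm d : S) : Ω) = d := fun d => by
      conv_rhs => rw [← e.apply_symm_apply d]
      rfl
    have hf : ∀ (a : F.autGroup C') (c : C),
        ((f a c : S) : Ω) = ((a : MulAut C') (e c) : Ω) := fun a c => he _
    have hfn : F.IsFullyNormalized C' := by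
      refine ⟨hC'S, fun Q _ => ?_⟩
      have hle : S ≤ Cfsg.FusionSystem.normalizerIn S C' := fun s hs => by
        refine ⟨hs, Subgroup.mem_normalizer_fintype ?_⟩
        rintro _ ⟨c, hc, rfl⟩
        exact ⟨⟨s, hs⟩ * c * ⟨s, hs⟩⁻¹, Subgroup.Normal.conj_mem inferInstance c hc _, rfl⟩
      have := finite_of_le (normalizerIn_le (S := S) C')
      exact Subgroup.card_le_of_le ((normalizerIn_le Q).trans hle)
    obtain ⟨-, T, hT⟩ := (fullyNormalized_props hS hF hfn).1
    refine ⟨f.range, fun s => ?_, fun c => ?_⟩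
    · have hN : (s : Ω) ∈ Subgroup.normalizer (C' : Set Ω) := by
        refine Subgroup.mem_normalizer_fintype ?_
        rintro _ ⟨d, hd, rfl⟩
        exact ⟨s * d * s⁻¹, Subgroup.Normal.conj_mem inferInstance d hd _, rfl⟩
      exact ⟨⟨conjAut hN, autInducedBy_le_autGroup F hC'S (conjAut_mem_autInducedBy hN s.2)⟩,
        MulEquiv.ext fun d => Subtype.ext (Subtype.ext (hf _ d))⟩
    · obtain ⟨N, ψ, hψ, hcN, hN, hz⟩ := hto c
      have hC'N : C' ≤ N := by
        rintro _ ⟨d, hd, rfl⟩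
        exact hN d (congrArg Subtype.val (hab.is_comm.comm ⟨d, hd⟩ c))
      let χ : C' →* Ω := ψ.comp (Subgroup.inclusion hC'N)
      have hχ : χ ∈ F.Hom C' := restrict_mem F hψ hC'N
      let φ : C →* S :=
        { toFun := fun d => ⟨χ (e d), hom_mem F hχ _⟩
          map_one' := Subtype.ext (by simp)
          map_mul' := fun a b => Subtype.ext (by simp) }
      have hφ : Function.Injective φ := fun a b hab' =>
        e.injective (F.injective_of_mem hχ (congrArg Subtype.val hab'))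
      have hr : χ.range = C' := by
        refine Subgroup.eq_of_le_of_card_ge ?_ (isConj_card (isConj_of_hom F hχ)).le
        rintro _ ⟨d, rfl⟩
        refine ⟨φ (e.symm d), map_mem_invCent hE le_rfl hφ (c := e.symm d) (e.symm d).2, ?_⟩
        show χ (e (e.symm d)) = χ d
        rw [e.apply_symm_apply]
      let γ : F.autGroup C' := ⟨isoOf hχ hr, isoOf_mem_autGroup hχ hr⟩
      refine odd_orbit f c (γ⁻¹ • T) fun q hq => ?_
      change q ∈ ((γ⁻¹ • T : Sylow 2 (F.autGroup C')) : Subgroup (F.autGroup C')) at hq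
      rw [Sylow.coe_subgroup_smul] at hq
      obtain ⟨r, hr', rfl⟩ := hq
      apply Subtype.ext
      apply Subtype.ext
      rw [hf]
      show ((γ⁻¹ * r * γ⁻¹⁻¹ : F.autGroup C') : MulAut C') (e c) = ((c : S) : Ω)
      have h1 : (r : MulAut C') ((γ : MulAut C') (e c)) = (γ : MulAut C') (e c) := by
        rw [hT] at hr'
        obtain ⟨g, hg, hgr⟩ := mem_autInducedBy_iff.1 hr'
        apply Subtype.ext
        refine (hgr _).trans ?_
        show g * ψ ⟨(c : S), hcN⟩ * g⁻¹ = ψ ⟨(c : S), hcN⟩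
        rw [hz g hg, mul_inv_cancel_right]
      rw [inv_inv]
      show (((γ : MulAut C')⁻¹ ((r : MulAut C') ((γ : MulAut C') (e c))) : C') : Ω) = _
      rw [h1, MulAut.inv_def, MulEquiv.symm_apply_apply]
      rfl

end CfsgLib.CenterConj
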